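import Mathlib
import Cfsg.Prelude.Def_LinearParabolics

/-!
# Partial flags fixed by a cyclic matrix

For the companion matrix of a monic `P` the fixed points on the cosets of the standard parabolic of
a composition `μ` correspond to the tuples of monic polynomials of degrees `μ i` with product `P`.
-/

set_option autoImplicit false

open Polynomial

namespace Cfsg.Agent.UnipotentGL

variable {F : Type*} [Field F] {n : ℕ}

/-- Partial sums. -/
def T (μ : Fin n → ℕ) (k : ℕ) : ℕ := ∑ j ∈ Finset.univ.filter (fun j : Fin n => j.val < k), μ j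

theorem T_zero (μ : Fin n → ℕ) : T μ 0 = 0 := by simp [T]

theorem T_succ (μ : Fin n → ℕ) (k : Fin n) : T μ (k.val + 1) = T μ k.val + μ k := by
  unfold T
  rw [show Finset.univ.filter (fun j : Fin n => j.val < k.val + 1) =
      insert k (Finset.univ.filter (fun j : Fin n => j.val < k.val)) from ?_]
  · rw [Finset.sum_insert (by simp), add_comm]
  · ext j; simp [Fin.ext_iff]; omega

theorem T_mono (μ : Fin n → ℕ) {a b : ℕ} (h : a ≤ b) : T μ a ≤ T μ b :=
  Finset.sum_le_sum_of_subset fun j hj => by simp at hj ⊢; omega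

theorem T_of_ge (μ : Fin n → ℕ) {k : ℕ} (h : n ≤ k) : T μ k = ∑ j, μ j :=
  Finset.sum_congr (by ext j; simp; omega) fun _ _ => rfl

theorem compLabel_lt_iff (μ : Fin n → ℕ) (i : Fin n) (k : Fin n) :
    compLabel μ i ≤ k.val ↔ i.val < T μ (k.val + 1) := by
  have e : ∀ j : Fin n, (∑ l ∈ Finset.univ.filter (fun l : Fin n => l ≤ j), μ l) =
      T μ (j.val + 1) := fun j =>
    Finset.sum_congr (by ext l; simp only [Finset.mem_filter, Finset.mem_univ, true_and, Fin.le_iff_val_le_val]; omega) fun _ _ => rfl
  unfold compLabel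
  simp only [e]
  constructor
  · intro h
    by_contra hc
    push Not at hc
    have : (Finset.univ.filter fun j : Fin n => j.val ≤ k.val).card ≤
        (Finset.univ.filter fun j : Fin n => T μ (j.val + 1) ≤ i.val).card :=
      Finset.card_le_card fun j hj => by
        simp at hj ⊢
        exact le_trans (T_mono μ (by omega)) hc
    have hcard : (Finset.univ.filter fun j : Fin n => j.val ≤ k.val).card = k.val + 1 := by
      rw [show (Finset.univ.filter fun j : Fin n => j.val ≤ k.val) = Finset.Iic k by
        ext j; simp only [Finset.mem_filter, Finset.mem_univ, true_and, Finset.mem_Iic, Fin.le_iff_val_le_val], Fin.card_Iic]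
    omega
  · intro h
    refine le_trans (Finset.card_le_card (t := Finset.Iio k) fun j hj => ?_) (by simp)
    simp at hj ⊢
    by_contra hc
    push Not at hc
    have := T_mono μ (show k.val + 1 ≤ j.val + 1 by have : k.val ≤ j.val := hc; omega)
    omega

theorem T_add_sum (μ : Fin n → ℕ) (k : ℕ) :
    T μ k + ∑ j ∈ Finset.univ.filter (fun j : Fin n => k ≤ j.val), μ j = ∑ j, μ j := by
  rw [← Finset.sum_filter_add_sum_filter_not Finset.univ (fun j : Fin n => j.val < k) μ, T]
  congr 1
  exact Finset.sum_congr (Finset.filter_congr fun j _ => not_lt.symm) fun _ _ => rfl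

theorem sum_ge_eq (μ : Fin n → ℕ) (k : ℕ) :
    ∑ j ∈ Finset.univ.filter (fun j : Fin n => k ≤ j.val), μ j = (∑ j, μ j) - T μ k := by
  have := T_add_sum μ k
  omega

/-- The coordinate subspace spanned by the first `s` columns of `x`. -/
def colSub (x : GL (Fin n) F) (s : ℕ) : Submodule F (Fin n → F) where
  carrier := {v | ∀ i : Fin n, s ≤ i.val →
    ((x⁻¹ : GL (Fin n) F) : Matrix (Fin n) (Fin n) F).mulVec v i = 0}
  add_mem' := fun {a b} ha hb i hi => by
    rw [Matrix.mulVec_add, Pi.add_apply, ha i hi, hb i hi, add_zero]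
  zero_mem' := fun i _ => by simp
  smul_mem' := fun c a ha i hi => by
    rw [Matrix.mulVec_smul, Pi.smul_apply, ha i hi, smul_zero]

theorem col_mem_colSub (x : GL (Fin n) F) {s : ℕ} {i : Fin n} (hi : i.val < s) :
    (x : Matrix (Fin n) (Fin n) F).mulVec (Pi.single i 1) ∈ colSub x s := by
  intro j hj
  rw [Matrix.mulVec_mulVec, Units.inv_mul, Matrix.one_mulVec]
  exact Pi.single_eq_of_ne (Fin.ne_of_val_ne (by omega)) 1

theorem colSub_le {x : GL (Fin n) F} {s : ℕ} {M : Submodule F (Fin n → F)}
    (h : ∀ i : Fin n, i.val < s → (x : Matrix (Fin n) (Fin n) F).mulVec (Pi.single i 1) ∈ M) :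
    colSub x s ≤ M := by
  intro v hv
  set w := ((x⁻¹ : GL (Fin n) F) : Matrix (Fin n) (Fin n) F).mulVec v with hw
  have hvw : v = (x : Matrix (Fin n) (Fin n) F).mulVec w := by
    rw [hw, Matrix.mulVec_mulVec, Units.mul_inv, Matrix.one_mulVec]
  rw [hvw]
  have hsum : w = ∑ i, w i • (Pi.single i (1 : F)) := by
    funext j; simp [Finset.sum_apply, Pi.single_apply, Finset.sum_ite_eq]
  rw [hsum, Matrix.mulVec_sum]
  refine Submodule.sum_mem _ fun i _ => ?_
  rw [Matrix.mulVec_smul]
  by_cases hi : i.val < s
  · exact M.smul_mem _ (h i hi)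
  · rw [hw, hv i (by omega), zero_smul]; exact M.zero_mem

theorem finrank_colSub (x : GL (Fin n) F) {s : ℕ} (hs : s ≤ n) :
    Module.finrank F (colSub x s) = s := by
  let e : colSub x s ≃ₗ[F] (Fin s → F) :=
    { toFun := fun v j => ((x⁻¹ : GL (Fin n) F) : Matrix (Fin n) (Fin n) F).mulVec v.1
        (Fin.castLE hs j)
      map_add' := fun a b => by funext j; simp [Matrix.mulVec_add]
      map_smul' := fun c a => by funext j; simp [Matrix.mulVec_smul]
      invFun := fun w => ⟨(x : Matrix (Fin n) (Fin n) F).mulVec
          (fun i => if h : i.val < s then w ⟨i.val, h⟩ else 0), fun i hi => by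
        rw [Matrix.mulVec_mulVec, Units.inv_mul, Matrix.one_mulVec]
        simp [show ¬ i.val < s by omega]⟩
      left_inv := fun v => by
        apply Subtype.ext
        show (x : Matrix (Fin n) (Fin n) F).mulVec _ = v.1
        conv_rhs => rw [← Matrix.one_mulVec v.1, ← Units.mul_inv x, ← Matrix.mulVec_mulVec]
        congr 1
        funext i
        by_cases h : i.val < s
        · simp [h]
        · rw [dif_neg h]; exact (v.2 i (by omega)).symm
      right_inv := fun w => by
        funext j
        simp [Matrix.mulVec_mulVec, Units.inv_mul] }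
  rw [e.finrank_eq, Module.finrank_fin_fun]

/-- Membership in the parabolic, by the flag. -/
theorem conj_mem_parabolic_iff (μ : Fin n → ℕ) (g x : GL (Fin n) F) :
    x⁻¹ * g * x ∈ parabolicGL n F μ ↔
      ∀ k : Fin n, ∀ v ∈ colSub x (T μ (k.val + 1)),
        (g : Matrix (Fin n) (Fin n) F).mulVec v ∈ colSub x (T μ (k.val + 1)) := by
  have hent : ∀ i j : Fin n, ((x⁻¹ * g * x : GL (Fin n) F) : Matrix (Fin n) (Fin n) F) i j =
      ((x⁻¹ : GL (Fin n) F) : Matrix (Fin n) (Fin n) F).mulVec
        ((g : Matrix (Fin n) (Fin n) F).mulVec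
          ((x : Matrix (Fin n) (Fin n) F).mulVec (Pi.single j 1))) i := by
    intro i j
    rw [Matrix.mulVec_mulVec, Matrix.mulVec_mulVec, Units.val_mul, Units.val_mul, Matrix.mul_assoc,
      Matrix.mulVec_single_one]
    rfl
  constructor
  · intro h k v hv
    refine (colSub_le (M := (colSub x (T μ (k.val + 1))).comap
      (Matrix.mulVecLin (g : Matrix (Fin n) (Fin n) F))) ?_) hv
    intro j hj i hi
    have := h (show compLabel μ j < compLabel μ i from ?_)
    · rw [Matrix.mulVecLin_apply, ← hent]; exact this
    · have h1 := (compLabel_lt_iff μ j k).2 hj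
      have h2 : ¬ compLabel μ i ≤ k.val := fun hc =>
        absurd ((compLabel_lt_iff μ i k).1 hc) (by omega)
      omega
  · intro h i j hij
    have hjn : compLabel μ j < n := by
      have : compLabel μ i ≤ n := (Finset.card_filter_le _ _).trans (by simp)
      omega
    have hj := (compLabel_lt_iff μ j ⟨compLabel μ j, hjn⟩).1 le_rfl
    have hi : T μ (compLabel μ j + 1) ≤ i.val := by
      by_contra hc
      push Not at hc
      have := (compLabel_lt_iff μ i ⟨compLabel μ j, hjn⟩).2 hc
      simp at this
      omega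
    rw [hent]
    exact h ⟨compLabel μ j, hjn⟩ _ (col_mem_colSub x hj) i hi

theorem coset_eq_iff (μ : Fin n → ℕ) (x y : GL (Fin n) F) :
    (QuotientGroup.mk x : GL (Fin n) F ⧸ parabolicGL n F μ) = QuotientGroup.mk y ↔
      ∀ k : Fin n, colSub y (T μ (k.val + 1)) = colSub x (T μ (k.val + 1)) := by
  rw [QuotientGroup.eq]
  have key : ∀ x y : GL (Fin n) F, x⁻¹ * y ∈ parabolicGL n F μ →
      ∀ k : Fin n, colSub y (T μ (k.val + 1)) ≤ colSub x (T μ (k.val + 1)) := by
    intro x y h k
    refine colSub_le fun j hj i hi => ?_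
    rw [Matrix.mulVec_mulVec, Matrix.mulVec_single_one, ← Units.val_mul]
    refine h ?_
    have h1 := (compLabel_lt_iff μ j k).2 hj
    have h2 : ¬ compLabel μ i ≤ k.val := fun hc =>
      absurd ((compLabel_lt_iff μ i k).1 hc) (by omega)
    omega
  constructor
  · intro h k
    refine le_antisymm (key x y h k) (key y x ?_ k)
    have := (parabolicGL n F μ).inv_mem h
    simpa using this
  · intro h i j hij
    have hjn : compLabel μ j < n := by
      have : compLabel μ i ≤ n := (Finset.card_filter_le _ _).trans (by simp)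
      omega
    have hj := (compLabel_lt_iff μ j ⟨compLabel μ j, hjn⟩).1 le_rfl
    have hi : T μ (compLabel μ j + 1) ≤ i.val := by
      by_contra hc
      push Not at hc
      have := (compLabel_lt_iff μ i ⟨compLabel μ j, hjn⟩).2 hc
      simp at this
      omega
    have hm := col_mem_colSub y hj
    rw [h ⟨compLabel μ j, hjn⟩] at hm
    have := hm i hi
    rw [Matrix.mulVec_mulVec, Matrix.mulVec_single_one, ← Units.val_mul] at this
    exact this

section cyclic

variable {P : F[X]} (hP : P.Monic) (hn : P.natDegree = n)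

/-- Vectors as residues modulo `P`. -/
noncomputable def vec : F[X] →ₗ[F] (Fin n → F) :=
  ((AdjoinRoot.powerBasis' hP).basis.reindex
      (finCongr (by simpa using hn))).equivFun.toLinearMap ∘ₗ
    (AdjoinRoot.mkₐ P).toLinearMap

theorem vec_eq_zero_iff (h : F[X]) : vec hP hn h = 0 ↔ P ∣ h := by
  unfold vec
  rw [LinearMap.comp_apply, LinearEquiv.coe_coe, LinearEquiv.map_eq_zero_iff]
  exact AdjoinRoot.mk_eq_zero

theorem vec_surjective : Function.Surjective (vec hP hn) := by
  intro v
  obtain ⟨a, ha⟩ := ((AdjoinRoot.powerBasis' hP).basis.reindex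
      (finCongr (by simpa using hn))).equivFun.surjective v
  obtain ⟨h, rfl⟩ := AdjoinRoot.mk_surjective a
  exact ⟨h, ha⟩

theorem vec_eq_iff (h h' : F[X]) : vec hP hn h = vec hP hn h' ↔ P ∣ h - h' := by
  rw [← sub_eq_zero, ← map_sub, vec_eq_zero_iff]

/-- Residues of the multiples of `d`. -/
noncomputable def mult (d : F[X]) : Submodule F (Fin n → F) :=
  LinearMap.range (vec hP hn ∘ₗ LinearMap.mulLeft F d)

theorem mem_mult {d : F[X]} {v : Fin n → F} :
    v ∈ mult hP hn d ↔ ∃ q, vec hP hn (d * q) = v := by
  simp [mult]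

theorem vec_mem_mult {d h : F[X]} (hd : d ∣ P) :
    vec hP hn h ∈ mult hP hn d ↔ d ∣ h := by
  rw [mem_mult]
  constructor
  · rintro ⟨q, hq⟩
    have := dvd_trans hd ((vec_eq_iff hP hn _ _).1 hq)
    simpa using (dvd_mul_right d q).sub this
  · rintro ⟨q, rfl⟩; exact ⟨q, rfl⟩

theorem mult_injective {d d' : F[X]} (hd : d ∣ P) (hd' : d' ∣ P) (h1 : d.Monic) (h2 : d'.Monic)
    (h : mult hP hn d = mult hP hn d') : d = d' := by
  refine eq_of_monic_of_associated h1 h2 (associated_of_dvd_dvd ?_ ?_)
  · rw [← vec_mem_mult hP hn hd, h, vec_mem_mult hP hn hd']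
  · rw [← vec_mem_mult hP hn hd', ← h, vec_mem_mult hP hn hd]

theorem finrank_mult {d : F[X]} (hd : d ∣ P) (hdm : d.Monic) :
    Module.finrank F (mult hP hn d) = n - d.natDegree := by
  obtain ⟨e, he⟩ := hd
  have hem : e.Monic := hdm.of_mul_monic_left (he ▸ hP)
  have hdeg : d.natDegree + e.natDegree = n := by
    rw [← hn, he, hdm.natDegree_mul hem]
  let f : degreeLT F e.natDegree →ₗ[F] (Fin n → F) :=
    vec hP hn ∘ₗ LinearMap.mulLeft F d ∘ₗ (degreeLT F e.natDegree).subtype
  have hf : LinearMap.range f = mult hP hn d := by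
    refine le_antisymm ?_ ?_
    · rintro v ⟨q, rfl⟩; exact (mem_mult hP hn).2 ⟨q, rfl⟩
    · intro v hv
      obtain ⟨q, rfl⟩ := (mem_mult hP hn).1 hv
      refine ⟨⟨q %ₘ e, mem_degreeLT.2 ?_⟩, ?_⟩
      · exact lt_of_lt_of_eq (degree_modByMonic_lt q hem) (degree_eq_natDegree hem.ne_zero)
      · show vec hP hn (d * (q %ₘ e)) = _
        rw [vec_eq_iff]
        refine ⟨-(q /ₘ e), ?_⟩
        conv_lhs => rw [modByMonic_eq_sub_mul_div]
        rw [he]; ring
  have hinj : Function.Injective f := by
    rw [← LinearMap.ker_eq_bot, LinearMap.ker_eq_bot']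
    intro q hq
    have h : P ∣ d * (q : F[X]) := (vec_eq_zero_iff hP hn _).1 hq
    rw [he, mul_dvd_mul_iff_left hdm.ne_zero] at h
    refine Subtype.ext (eq_zero_of_dvd_of_degree_lt h ?_)
    rw [degree_eq_natDegree hem.ne_zero]
    exact mem_degreeLT.1 q.2
  rw [← hf, LinearMap.finrank_range_of_inj hinj, (degreeLTEquiv F e.natDegree).finrank_eq,
    Module.finrank_fin_fun]
  omega

end cyclic

/-- Tuples of monic polynomials of prescribed degrees with product `P`. -/
def Tup (P : F[X]) (μ : Fin n → ℕ) : Type _ :=
  {f : Fin n → F[X] // (∀ i, (f i).Monic) ∧ (∀ i, (f i).natDegree = μ i) ∧ ∏ i, f i = P}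

/-- Product of the entries from `k` on. -/
noncomputable def tail (f : Fin n → F[X]) (k : ℕ) : F[X] :=
  ∏ j ∈ Finset.univ.filter (fun j : Fin n => k ≤ j.val), f j

theorem tail_eq (f : Fin n → F[X]) (k : Fin n) : tail f k.val = f k * tail f (k.val + 1) := by
  unfold tail
  rw [show Finset.univ.filter (fun j : Fin n => k.val ≤ j.val) =
      insert k (Finset.univ.filter (fun j : Fin n => k.val + 1 ≤ j.val)) from ?_]
  · rw [Finset.prod_insert (by simp)]
  · ext j; simp [Fin.ext_iff]; omega

theorem tail_dvd (f : Fin n → F[X]) {a b : ℕ} (h : a ≤ b) : tail f b ∣ tail f a :=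
  Finset.prod_dvd_prod_of_subset _ _ _ fun j hj => by simp at hj ⊢; omega

theorem tail_zero (f : Fin n → F[X]) : tail f 0 = ∏ i, f i := by simp [tail]

theorem tail_ge (f : Fin n → F[X]) {k : ℕ} (h : n ≤ k) : tail f k = 1 := by
  unfold tail
  rw [Finset.filter_false_of_mem, Finset.prod_empty]
  intro j _; omega

theorem tail_monic {f : Fin n → F[X]} (h : ∀ i, (f i).Monic) (k : ℕ) : (tail f k).Monic :=
  monic_prod_of_monic _ _ fun j _ => h j

/-- **Fixed flags of a cyclic matrix.** -/
theorem exists_gl_fixed_card {P : F[X]} (hP : P.Monic) (hn : P.natDegree = n)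
    (h0 : P.eval 0 ≠ 0) :
    ∃ g : GL (Fin n) F, ∀ μ : Fin n → ℕ, (∑ i, μ i = n) →
      fixedPointCharacter (parabolicGL n F μ) g = (Nat.card (Tup P μ) : ℂ) := by
  classical
  set B := ((AdjoinRoot.powerBasis' hP).basis.reindex
      (finCongr (show (AdjoinRoot.powerBasis' hP).dim = n by simpa using hn))) with hB
  let m : (Fin n → F) →ₗ[F] (Fin n → F) :=
    B.equivFun.toLinearMap ∘ₗ LinearMap.mulLeft F (AdjoinRoot.root P) ∘ₗ
      B.equivFun.symm.toLinearMap
  have hm : ∀ h : F[X], m (vec hP hn h) = vec hP hn (X * h) := by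
    intro h
    show B.equivFun (AdjoinRoot.root P * B.equivFun.symm (B.equivFun (AdjoinRoot.mk P h))) =
      B.equivFun (AdjoinRoot.mk P (X * h))
    rw [LinearEquiv.symm_apply_apply, map_mul (AdjoinRoot.mk P), AdjoinRoot.mk_X]
  have hinj : Function.Injective m := by
    rw [← LinearMap.ker_eq_bot, LinearMap.ker_eq_bot']
    intro v hv
    obtain ⟨h, rfl⟩ := vec_surjective hP hn v
    rw [hm, vec_eq_zero_iff] at hv
    rw [vec_eq_zero_iff]
    have hc : IsCoprime P X := by
      rw [isCoprime_comm, (Polynomial.irreducible_X).coprime_iff_not_dvd, X_dvd_iff,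
        coeff_zero_eq_eval_zero]
      exact h0
    exact hc.dvd_of_dvd_mul_left hv
  have hunit : IsUnit (LinearMap.toMatrix' m) := by
    rw [← Matrix.mulVec_injective_iff_isUnit]
    intro v w h
    apply hinj
    rwa [← Matrix.toLin'_toMatrix' m, Matrix.toLin'_apply, Matrix.toLin'_apply]
  obtain ⟨g, hg⟩ := hunit
  refine ⟨g, fun μ hμ => ?_⟩
  have hgv : ∀ h : F[X], (g : Matrix (Fin n) (Fin n) F).mulVec (vec hP hn h) =
      vec hP hn (X * h) := by
    intro h
    rw [hg, ← Matrix.toLin'_apply, Matrix.toLin'_toMatrix', hm]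
  -- properties of a tuple
  have hdvd : ∀ (f : Tup P μ) (k : ℕ), tail f.1 k ∣ P := fun f k => by
    have := tail_dvd f.1 (Nat.zero_le k)
    rwa [tail_zero, f.2.2.2] at this
  have hdeg : ∀ (f : Tup P μ) (k : ℕ), (tail f.1 k).natDegree = n - T μ k := by
    intro f k
    unfold tail
    rw [natDegree_prod_of_monic _ _ fun j _ => f.2.1 j, Finset.sum_congr rfl fun j _ => f.2.2.1 j]
    have e := sum_ge_eq μ k
    rw [hμ] at e
    convert e using 4
  -- flags
  have hflag : ∀ f : Tup P μ, ∃ x : GL (Fin n) F, ∀ k : ℕ, k ≤ n →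
      colSub x (T μ k) = mult hP hn (tail f.1 k) := by
    intro f
    have hlab : ∀ i : Fin n, compLabel μ i < n := by
      intro i
      have hn0 : 0 < n := lt_of_le_of_lt (Nat.zero_le _) i.isLt
      have hle := (compLabel_lt_iff μ i ⟨n - 1, by omega⟩).2 (by
        simp only
        rw [T_of_ge μ (show n ≤ n - 1 + 1 by omega), hμ]; exact i.isLt)
      simp only at hle
      omega
    let col : Fin n → (Fin n → F) := fun i =>
      vec hP hn (tail f.1 (compLabel μ i + 1) * X ^ (i.val - T μ (compLabel μ i)))
    have hspan : ∀ k : ℕ, k ≤ n →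
        mult hP hn (tail f.1 k) ≤ Submodule.span F (col '' {i | i.val < T μ k}) := by
      intro k
      induction k with
      | zero =>
        intro _ v hv
        obtain ⟨q, rfl⟩ := (mem_mult hP hn).1 hv
        rw [tail_zero, f.2.2.2, (vec_eq_zero_iff hP hn _).2 (dvd_mul_right P q)]
        exact Submodule.zero_mem _
      | succ k ih =>
        intro hk v hv
        obtain ⟨q, rfl⟩ := (mem_mult hP hn).1 hv
        set K : Fin n := ⟨k, hk⟩ with hK
        have hT : T μ (k + 1) = T μ k + μ K := T_succ μ K
        rw [← modByMonic_add_div q (f.1 K), mul_add, map_add]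
        refine Submodule.add_mem _ ?_ ?_
        · rw [(q %ₘ f.1 K).as_sum_range' (μ K + 1) (by
            have := natDegree_modByMonic_le q (f.2.1 K)
            rw [f.2.2.1] at this; omega), Finset.mul_sum, map_sum]
          refine Submodule.sum_mem _ fun r hr => ?_
          by_cases hrμ : r < μ K
          · have hlt : T μ k + r < n := by
              have := T_mono μ (show k + 1 ≤ n from hk)
              rw [T_of_ge μ le_rfl, hμ] at this
              omega
            set i : Fin n := ⟨T μ k + r, hlt⟩ with hi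
            have hiv : i.val = T μ k + r := rfl
            have hKv : K.val = k := rfl
            have hlabel : compLabel μ i = k := by
              refine le_antisymm ((compLabel_lt_iff μ i K).2 (by rw [hKv, hiv, hT]; omega)) ?_
              rcases Nat.eq_zero_or_pos k with h0' | h0'
              · omega
              · by_contra hc
                have := (compLabel_lt_iff μ i ⟨k - 1, by omega⟩).1 (show _ ≤ k - 1 by omega)
                simp only [show k - 1 + 1 = k by omega] at this
                omega
            rw [← C_mul_X_pow_eq_monomial, ← mul_assoc, mul_comm (tail f.1 (k + 1)),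
              mul_assoc, ← smul_eq_C_mul, map_smul]
            refine Submodule.smul_mem _ _ (Submodule.subset_span ⟨i, ?_, ?_⟩)
            · show i.val < T μ (k + 1)
              omega
            · simp only [col, hlabel, hiv, Nat.add_sub_cancel_left]
          · have hz : (q %ₘ f.1 K).coeff r = 0 := by
              by_cases h1 : f.1 K = 1
              · simp [h1]
              · have hlt := natDegree_modByMonic_lt q (f.2.1 K) h1
                rw [f.2.2.1] at hlt
                exact coeff_eq_zero_of_natDegree_lt (by omega)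
            simp [hz]
        · have hsub : col '' {i | i.val < T μ k} ⊆ col '' {i | i.val < T μ (k + 1)} := by
            rintro _ ⟨i, hi, rfl⟩
            refine ⟨i, ?_, rfl⟩
            have hi' : i.val < T μ k := hi
            show i.val < T μ (k + 1)
            omega
          refine Submodule.span_mono hsub (ih (by omega) ?_)
          refine (mem_mult hP hn).2 ⟨q /ₘ f.1 K, ?_⟩
          rw [show tail f.1 k = f.1 K * tail f.1 (k + 1) from tail_eq f.1 K]
          congr 1; ring
    have htop : Submodule.span F (Set.range col) = ⊤ := by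
      rw [eq_top_iff]
      intro v _
      obtain ⟨h, rfl⟩ := vec_surjective hP hn v
      refine Submodule.span_mono (Set.image_subset_range _ _) (hspan n le_rfl ?_)
      rw [tail_ge f.1 le_rfl]
      exact (mem_mult hP hn).2 ⟨h, by rw [one_mul]⟩
    let M : Matrix (Fin n) (Fin n) F := Matrix.of fun i j => col j i
    have hMu : IsUnit M := by
      rw [← Matrix.mulVec_injective_iff_isUnit]
      have hs : Function.Surjective M.mulVec := by
        intro v
        have : v ∈ Submodule.span F (Set.range col) := htop ▸ Submodule.mem_top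
        obtain ⟨c, rfl⟩ := (Submodule.mem_span_range_iff_exists_fun F).1 this
        refine ⟨c, ?_⟩
        funext i
        simp [M, Matrix.mulVec, dotProduct, mul_comm]
      exact (LinearMap.injective_iff_surjective (f := M.mulVecLin)).2 hs
    obtain ⟨x, hx⟩ := hMu
    refine ⟨x, fun k hk => le_antisymm (colSub_le fun i hi => ?_) ?_⟩
    · rw [hx, Matrix.mulVec_single_one]
      show col i ∈ _
      rw [vec_mem_mult hP hn (hdvd f k)]
      refine dvd_mul_of_dvd_left (tail_dvd f.1 ?_) _
      rcases Nat.eq_zero_or_pos k with h0' | h0'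
      · subst h0'; rw [T_zero] at hi; omega
      · have := (compLabel_lt_iff μ i ⟨k - 1, by omega⟩).2
          (by simpa [show k - 1 + 1 = k by omega] using hi)
        simp at this; omega
    · refine (hspan k hk).trans (Submodule.span_le.2 ?_)
      rintro _ ⟨i, hi, rfl⟩
      have := col_mem_colSub x (s := T μ k) (i := i) hi
      rw [hx, Matrix.mulVec_single_one] at this
      exact this
  choose X' hX' using hflag
  unfold fixedPointCharacter
  congr 1
  symm
  refine Nat.card_congr (Equiv.ofBijective (fun f => ⟨QuotientGroup.mk (X' f), ?_⟩) ⟨?_, ?_⟩)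
  · rw [MulAction.mem_fixedBy, MulAction.Quotient.smul_mk, eq_comm, QuotientGroup.eq,
      smul_eq_mul, ← mul_assoc, conj_mem_parabolic_iff]
    intro k v hv
    rw [hX' f _ k.isLt] at hv ⊢
    obtain ⟨q, rfl⟩ := (mem_mult hP hn).1 hv
    rw [hgv]
    exact (mem_mult hP hn).2 ⟨X * q, by congr 1; ring⟩
  · intro f f' h
    have h' := (coset_eq_iff μ _ _).1 (congrArg Subtype.val h)
    have ht : ∀ k : ℕ, tail f.1 k = tail f'.1 k := by
      intro k
      rcases Nat.eq_zero_or_pos k with h0' | h0'
      · rw [h0', tail_zero, tail_zero, f.2.2.2, f'.2.2.2]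
      · by_cases hkn : k ≤ n
        · apply mult_injective hP hn (hdvd f k) (hdvd f' k) (tail_monic f.2.1 k) (tail_monic f'.2.1 k)
          rw [← hX' f k hkn, ← hX' f' k hkn]
          have := h' ⟨k - 1, by omega⟩
          simp [show k - 1 + 1 = k by omega] at this
          exact this.symm
        · rw [tail_ge _ (by omega), tail_ge _ (by omega)]
    apply Subtype.ext
    funext K
    have := ht K.val
    rw [tail_eq, tail_eq, ht (K.val + 1)] at this
    exact mul_right_cancel₀ (tail_monic f'.2.1 _).ne_zero this
  · rintro ⟨q, hq⟩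
    obtain ⟨y, rfl⟩ := QuotientGroup.mk_surjective q
    rw [MulAction.mem_fixedBy, MulAction.Quotient.smul_mk, eq_comm, QuotientGroup.eq,
      smul_eq_mul, ← mul_assoc, conj_mem_parabolic_iff] at hq
    have hinvk : ∀ k : ℕ, k ≤ n → ∀ v ∈ colSub y (T μ k),
        (g : Matrix (Fin n) (Fin n) F).mulVec v ∈ colSub y (T μ k) := by
      intro k hk v hv
      rcases Nat.eq_zero_or_pos k with h0' | h0'
      · subst h0'
        have hv0 : v = 0 := by
          have : colSub y (T μ 0) ≤ ⊥ :=
            colSub_le fun i hi => by rw [T_zero] at hi; omega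
          simpa using this hv
        subst hv0
        rw [Matrix.mulVec_zero]
        exact Submodule.zero_mem _
      · have := hq ⟨k - 1, by omega⟩
        simp only [show k - 1 + 1 = k by omega] at this
        exact this v hv
    have hgen : ∀ k : ℕ, k ≤ n → ∃ d : F[X], d.Monic ∧ d ∣ P ∧
        mult hP hn d = colSub y (T μ k) := by
      intro k hk
      let J : Ideal F[X] :=
        { carrier := {h | vec hP hn h ∈ colSub y (T μ k)}
          add_mem' := fun {a b} ha hb => by
            simpa [map_add] using Submodule.add_mem _ ha hb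
          zero_mem' := by simp
          smul_mem' := fun c h hh => by
            show vec hP hn (c • h) ∈ colSub y (T μ k)
            rw [smul_eq_mul]
            have hh : vec hP hn h ∈ colSub y (T μ k) := hh
            induction c using Polynomial.induction_on' with
            | add a b ha hb => rw [add_mul, map_add]; exact Submodule.add_mem _ ha hb
            | monomial r a =>
              rw [← C_mul_X_pow_eq_monomial, mul_assoc, ← smul_eq_C_mul, map_smul]
              refine Submodule.smul_mem _ _ ?_
              induction r with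
              | zero => simpa using hh
              | succ r ihr =>
                rw [pow_succ', mul_assoc, ← hgv]
                exact hinvk k hk _ ihr }
      have hPJ : P ∈ J := by
        show vec hP hn P ∈ colSub y (T μ k)
        rw [(vec_eq_zero_iff hP hn P).2 dvd_rfl]
        exact Submodule.zero_mem _
      obtain ⟨d0, hd0⟩ := (IsPrincipalIdealRing.principal J).principal
      have hd0P : d0 ∣ P := Ideal.mem_span_singleton.1 (by rwa [hd0] at hPJ)
      have hd0ne : d0 ≠ 0 := ne_zero_of_dvd_ne_zero hP.ne_zero hd0P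
      refine ⟨normalize d0, Polynomial.monic_normalize hd0ne, normalize_dvd_iff.2 hd0P, ?_⟩
      ext v
      obtain ⟨h, rfl⟩ := vec_surjective hP hn v
      rw [vec_mem_mult hP hn (normalize_dvd_iff.2 hd0P), normalize_dvd_iff,
        ← Ideal.mem_span_singleton]
      show _ ↔ h ∈ J
      rw [hd0]
    choose D hDm hDd hD using hgen
    have hTn : ∀ k, k ≤ n → T μ k ≤ n := fun k hk => by
      have := T_mono μ hk
      rwa [T_of_ge μ le_rfl, hμ] at this
    have hDdeg : ∀ (k : ℕ) (hk : k ≤ n), (D k hk).natDegree = n - T μ k := by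
      intro k hk
      have h1 := finrank_mult hP hn (hDd k hk) (hDm k hk)
      rw [hD k hk, finrank_colSub y (hTn k hk)] at h1
      have h2 : (D k hk).natDegree ≤ n := hn ▸ natDegree_le_of_dvd (hDd k hk) hP.ne_zero
      omega
    have hDstep : ∀ K : Fin n, D (K.val + 1) K.isLt ∣ D K.val K.isLt.le := by
      intro K
      rw [← vec_mem_mult hP hn (hDd _ _), hD]
      have : vec hP hn (D K.val K.isLt.le) ∈ colSub y (T μ K.val) := by
        rw [← hD _ K.isLt.le]; exact (vec_mem_mult hP hn (hDd _ _)).2 dvd_rfl
      exact fun i hi => this i (le_trans (T_mono μ (Nat.le_succ _)) hi)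
    choose f hf using hDstep
    have hfm : ∀ K, (f K).Monic := fun K =>
      (hDm _ _).of_mul_monic_left (by rw [← hf K]; exact hDm _ _)
    have hfd : ∀ K, (f K).natDegree = μ K := by
      intro K
      have h1 := congrArg natDegree (hf K)
      rw [(hDm _ _).natDegree_mul (hfm K), hDdeg, hDdeg] at h1
      have := T_succ μ K
      have := hTn (K.val + 1) K.isLt
      omega
    have hDn : D n le_rfl = 1 :=
      eq_one_of_monic_natDegree_zero (hDm _ _) (by rw [hDdeg, T_of_ge μ le_rfl, hμ, Nat.sub_self])
    have htail : ∀ j k : ℕ, ∀ hk : k ≤ n, j + k = n → tail f k = D k hk := by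
      intro j
      induction j with
      | zero =>
        intro k hk e
        have : k = n := by omega
        subst this
        rw [tail_ge f le_rfl, hDn]
      | succ j ihj =>
        intro k hk e
        rw [show tail f k = f ⟨k, by omega⟩ * tail f (k + 1) from tail_eq f ⟨k, by omega⟩,
          ihj (k + 1) (by omega) (by omega), mul_comm]
        exact (hf ⟨k, by omega⟩).symm
    have hprod : ∏ i, f i = P := by
      rw [← tail_zero, htail n 0 (Nat.zero_le _) (by omega)]
      refine Polynomial.eq_of_monic_of_associated (hDm _ _) hP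
        (associated_of_dvd_dvd (hDd _ _) ?_)
      exact (eq_of_monic_of_dvd_of_natDegree_le (hDm _ _) hP (hDd _ _)
        (by rw [hDdeg, T_zero, hn]; omega)).dvd
    refine ⟨⟨f, hfm, hfd, hprod⟩, Subtype.ext ?_⟩
    refine (coset_eq_iff μ _ _).2 fun K => ?_
    have e := hX' (⟨f, hfm, hfd, hprod⟩ : Tup P μ) (K.val + 1) K.isLt
    refine Eq.trans ?_ e.symm
    show _ = mult hP hn (tail f (K.val + 1))
    rw [htail (n - (K.val + 1)) (K.val + 1) K.isLt (by omega), hD]

end Cfsg.Agent.UnipotentGL
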