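import Mathlib
import Cfsg.Agent.Lib.UnipotentGL.CyclicFlags

/-!
# Orbits on pairs of flags: double coset keys, Young subgroups and margin matrices
-/

set_option autoImplicit false

namespace Cfsg.Agent.UnipotentGL

/-- Burnside for pairs of cosets, with a complete double coset invariant. -/
theorem sum_fixed_mul_fixed {G W κ : Type*} [Group G] [Fintype G] (H K : Subgroup G) (rep : W → G)
    (key : W → κ) (hsurj : ∀ g : G, ∃ w, ∃ h ∈ H, ∃ k ∈ K, g = h * rep w * k)
    (hkey : ∀ w w', key w = key w' ↔ ∃ h ∈ H, ∃ k ∈ K, rep w' = h * rep w * k) :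
    ∑ g : G, fixedPointCharacter H g * fixedPointCharacter K g =
      (Nat.card G : ℂ) * Nat.card (Set.range key) := by
  classical
  have hfix : ∀ g : G, fixedPointCharacter H g * fixedPointCharacter K g =
      (Fintype.card (MulAction.fixedBy ((G ⧸ H) × (G ⧸ K)) g) : ℂ) := by
    intro g
    unfold fixedPointCharacter
    rw [← Nat.cast_mul, ← Nat.card_prod, ← Nat.card_eq_fintype_card]
    congr 1
    refine Nat.card_congr ?_
    exact
      { toFun := fun p => ⟨(p.1.1, p.2.1), Prod.ext p.1.2 p.2.2⟩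
        invFun := fun p => (⟨p.1.1, congrArg Prod.fst p.2⟩, ⟨p.1.2, congrArg Prod.snd p.2⟩)
        left_inv := fun _ => rfl
        right_inv := fun _ => rfl }
  let Φ : Set.range key → Quotient (MulAction.orbitRel G ((G ⧸ H) × (G ⧸ K))) := fun c =>
    Quotient.mk'' ((QuotientGroup.mk 1 : G ⧸ H), (QuotientGroup.mk (rep c.2.choose) : G ⧸ K))
  have hrep : ∀ c : Set.range key, key c.2.choose = c.1 := fun c => c.2.choose_spec
  have hbij : Function.Bijective Φ := by
    constructor
    · intro c c' h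
      obtain ⟨g, hg⟩ := (Quotient.eq''.1 h : MulAction.orbitRel G _ _ _)
      have h1 : (QuotientGroup.mk (g * 1) : G ⧸ H) = QuotientGroup.mk 1 := congrArg Prod.fst hg
      have h2 : (QuotientGroup.mk (g * rep c'.2.choose) : G ⧸ K) = QuotientGroup.mk (rep c.2.choose) :=
        congrArg Prod.snd hg
      rw [QuotientGroup.eq] at h1 h2
      refine Subtype.ext ?_
      rw [← hrep c, ← hrep c']
      symm
      refine (hkey _ _).2 ⟨g, by simpa using h1, _, h2, ?_⟩
      group
    · intro z
      obtain ⟨⟨x, y⟩, rfl⟩ := Quotient.mk''_surjective z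
      obtain ⟨a, rfl⟩ := QuotientGroup.mk_surjective x
      obtain ⟨b, rfl⟩ := QuotientGroup.mk_surjective y
      obtain ⟨w, h, hh, k, hk, e⟩ := hsurj (a⁻¹ * b)
      let c : Set.range key := ⟨key w, w, rfl⟩
      obtain ⟨h', hh', k', hk', e'⟩ := (hkey c.2.choose w).1 (hrep c)
      refine ⟨c, (Quotient.eq''.2 (?_ : MulAction.orbitRel G _ _ _))⟩
      refine ⟨(a * h * h')⁻¹, Prod.ext ?_ ?_⟩
      · show (QuotientGroup.mk ((a * h * h')⁻¹ * a) : G ⧸ H) = QuotientGroup.mk 1
        rw [QuotientGroup.eq]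
        simpa [mul_assoc] using mul_mem hh hh'
      · show (QuotientGroup.mk ((a * h * h')⁻¹ * b) : G ⧸ K) = QuotientGroup.mk (rep c.2.choose)
        rw [QuotientGroup.eq]
        have eb : b = a * (h * rep w * k) := by rw [← e, mul_inv_cancel_left]
        rw [eb, e']
        have : ((a * h * h')⁻¹ * (a * (h * (h' * rep c.2.choose * k') * k)))⁻¹ * rep c.2.choose =
            k⁻¹ * k'⁻¹ := by group
        rw [this]
        exact mul_mem (inv_mem hk) (inv_mem hk')
  have := MulAction.sum_card_fixedBy_eq_card_orbits_mul_card_group G ((G ⧸ H) × (G ⧸ K))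
  rw [Finset.sum_congr rfl fun g _ => hfix g, ← Nat.cast_sum, this, Nat.card_congr (Equiv.ofBijective Φ hbij),
    ← Nat.card_eq_fintype_card, ← Nat.card_eq_fintype_card, Nat.cast_mul, mul_comm]

variable {n : ℕ} {μ : Fin n → ℕ}

theorem compLabel_lt (hμ : ∑ i, μ i = n) (i : Fin n) : compLabel μ i < n := by
  have hn0 : 0 < n := lt_of_le_of_lt (Nat.zero_le _) i.isLt
  have hle := (compLabel_lt_iff μ i ⟨n - 1, by omega⟩).2 (by
    simp only
    rw [T_of_ge μ (show n ≤ n - 1 + 1 by omega), hμ]; exact i.isLt)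
  simp only at hle
  omega

theorem compLabel_mono (μ : Fin n → ℕ) : Monotone (compLabel μ) := by
  intro i j hij
  refine Finset.card_le_card fun k hk => ?_
  simp only [Finset.mem_filter, Finset.mem_univ, true_and] at hk ⊢
  exact hk.trans hij

/-- The block of a position. -/
def lab (hμ : ∑ i, μ i = n) (i : Fin n) : Fin n := ⟨compLabel μ i, compLabel_lt hμ i⟩

theorem T_le (hμ : ∑ i, μ i = n) (k : ℕ) : T μ k ≤ n :=
  calc T μ k ≤ ∑ j, μ j := Finset.sum_le_sum_of_subset (Finset.filter_subset _ _)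
    _ = n := hμ

theorem lab_lt_iff (hμ : ∑ i, μ i = n) (i : Fin n) (b : ℕ) :
    compLabel μ i < b ↔ i.val < T μ b := by
  rcases Nat.eq_zero_or_pos b with rfl | hb
  · simp [T_zero]
  · by_cases hbn : b ≤ n
    · have := compLabel_lt_iff μ i ⟨b - 1, by omega⟩
      rw [show b - 1 + 1 = b by omega] at this
      simp only at this
      rw [← this]; omega
    · rw [T_of_ge μ (by omega), hμ]
      exact iff_of_true (by have := compLabel_lt hμ i; omega) i.isLt

open Classical in
theorem card_lab_fiber (hμ : ∑ i, μ i = n) (a : Fin n) :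
    (Finset.univ.filter fun i => lab hμ i = a).card = μ a := by
  have key : ∀ b : ℕ, (Finset.univ.filter fun i : Fin n => compLabel μ i < b).card = T μ b := by
    intro b
    rw [Finset.filter_congr fun i _ => lab_lt_iff hμ i b]
    exact Fin.card_filter_val_lt.trans (min_eq_right (T_le hμ b))
  have e : (Finset.univ.filter fun i : Fin n => compLabel μ i < a.val + 1) =
      (Finset.univ.filter fun i : Fin n => compLabel μ i < a.val) ∪
        (Finset.univ.filter fun i => lab hμ i = a) := by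
    ext i
    simp [lab, Fin.ext_iff]
    omega
  have h1 := congrArg Finset.card e
  rw [Finset.card_union_of_disjoint (Finset.disjoint_left.2 fun i hi hi' => by
    simp [lab, Fin.ext_iff] at hi hi'; omega), key, key, T_succ μ a] at h1
  omega

/-- Matrices with prescribed margins. -/
def Margins (ν μ : Fin n → ℕ) : Type :=
  {k : Fin n × Fin n → ℕ // (∀ a, ∑ b, k (a, b) = ν a) ∧ ∀ b, ∑ a, k (a, b) = μ b}

variable {ν : Fin n → ℕ}

/-- The table of a permutation. -/
noncomputable def table (hν : ∑ i, ν i = n) (hμ : ∑ i, μ i = n) (π : Equiv.Perm (Fin n)) :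
    Fin n × Fin n → ℕ := fun p => Nat.card {i : Fin n // (lab hν (π i), lab hμ i) = p}

theorem table_eq_iff (hν : ∑ i, ν i = n) (hμ : ∑ i, μ i = n) (π π' : Equiv.Perm (Fin n)) :
    table hν hμ π = table hν hμ π' ↔
      ∃ σ ∈ youngSubgroup ν, ∃ τ ∈ youngSubgroup μ, π' = σ * π * τ := by
  classical
  constructor
  · intro h
    have e : ∀ p, {i : Fin n // (lab hν (π' i), lab hμ i) = p} ≃
        {i : Fin n // (lab hν (π i), lab hμ i) = p} := fun p =>
      (Finite.card_eq.1 (congrFun h p).symm).some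
    set τ : Equiv.Perm (Fin n) := Equiv.ofFiberEquiv e with hτ
    have ht : ∀ i, (lab hν (π (τ i)), lab hμ (τ i)) = (lab hν (π' i), lab hμ i) :=
      fun i => Equiv.ofFiberEquiv_map e i
    refine ⟨π' * (π * τ)⁻¹, fun j => ?_, τ, fun i => congrArg Fin.val (congrArg Prod.snd (ht i)),
      by group⟩
    obtain ⟨i, rfl⟩ := (π * τ).surjective j
    show compLabel ν ((π' * (π * τ)⁻¹) ((π * τ) i)) = _
    rw [Equiv.Perm.mul_apply π' (π * τ)⁻¹]
    simp only [Equiv.Perm.coe_mul, Function.comp_apply]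
    rw [show ((π * τ)⁻¹ : Equiv.Perm (Fin n)) (π (τ i)) = i from (π * τ).symm_apply_apply i]
    exact (congrArg Fin.val (congrArg Prod.fst (ht i))).symm
  · rintro ⟨σ, hσ, τ, hτ, rfl⟩
    funext p
    refine Nat.card_congr (Equiv.subtypeEquiv τ.symm fun i => ?_)
    have h1 : lab hν ((σ * π * τ) (τ.symm i)) = lab hν (π i) := Fin.ext (by
      show compLabel ν (σ (π (τ (τ.symm i)))) = _
      rw [Equiv.apply_symm_apply, hσ]; rfl)
    have h2 : lab hμ (τ.symm i) = lab hμ i := Fin.ext (by
      show compLabel μ (τ.symm i) = compLabel μ i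
      conv_rhs => rw [← τ.apply_symm_apply i, hτ])
    rw [h1, h2]

theorem sum_table_fst (hν : ∑ i, ν i = n) (hμ : ∑ i, μ i = n) (π : Equiv.Perm (Fin n)) :
    (∀ a, ∑ b, table hν hμ π (a, b) = ν a) ∧ ∀ b, ∑ a, table hν hμ π (a, b) = μ b := by
  classical
  have e : ∀ p, table hν hμ π p =
      (Finset.univ.filter fun i => (lab hν (π i), lab hμ i) = p).card := fun p => by
    rw [table, Nat.card_eq_fintype_card, Fintype.card_subtype]
  constructor
  · intro a
    simp only [e]
    rw [show ν a = (Finset.univ.filter fun i => lab hν (π i) = a).card from ?_,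
      Finset.card_eq_sum_card_fiberwise (f := fun i => lab hμ i) (t := Finset.univ) (by simp)]
    · refine Finset.sum_congr rfl fun b _ => ?_
      congr 1; ext i; simp
    · rw [← card_lab_fiber hν a]
      refine Finset.card_equiv π.symm fun i => by simp
  · intro b
    simp only [e]
    rw [← card_lab_fiber hμ b,
      Finset.card_eq_sum_card_fiberwise (f := fun i => lab hν (π i)) (t := Finset.univ) (by simp)]
    refine Finset.sum_congr rfl fun a _ => ?_
    congr 1; ext i; simp [and_comm]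

theorem exists_table (hν : ∑ i, ν i = n) (hμ : ∑ i, μ i = n) (k : Margins ν μ) :
    ∃ π, table hν hμ π = k.1 := by
  classical
  let X := Σ a : Fin n, Σ b : Fin n, Fin (k.1 (a, b))
  have e1 : ∀ a, {i : Fin n // lab hν i = a} ≃ {x : X // x.1 = a} := fun a =>
    ((Finite.card_eq (β := Σ b : Fin n, Fin (k.1 (a, b)))).1 (by
      rw [Nat.card_sigma, Nat.card_eq_fintype_card, Fintype.card_subtype, card_lab_fiber hν a]
      simp [k.2.1 a])).some.trans
      (Equiv.sigmaSubtype (β := fun a => Σ b : Fin n, Fin (k.1 (a, b))) a).symm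
  have e2 : ∀ b, {i : Fin n // lab hμ i = b} ≃ {x : X // x.2.1 = b} := fun b =>
    (Finite.card_eq.1 (by
      rw [Nat.card_eq_fintype_card, Fintype.card_subtype, card_lab_fiber hμ b, ← k.2.2 b]
      rw [Nat.card_congr
        (show {x : X // x.2.1 = b} ≃ Σ a : Fin n, Fin (k.1 (a, b)) from
          { toFun := fun x => ⟨x.1.1, Fin.cast (congrArg (fun b' => k.1 (x.1.1, b')) x.2) x.1.2.2⟩
            invFun := fun y => ⟨⟨y.1, b, y.2⟩, rfl⟩
            left_inv := by rintro ⟨⟨a, b', z⟩, rfl⟩; rfl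
            right_inv := fun y => rfl }), Nat.card_sigma]
      simp)).some
  set f : Fin n ≃ X := Equiv.ofFiberEquiv e1 with hf
  set g : Fin n ≃ X := Equiv.ofFiberEquiv e2 with hg
  refine ⟨g.trans f.symm, funext fun p => ?_⟩
  obtain ⟨a, b⟩ := p
  have hfa : ∀ i, (f i).1 = lab hν i := fun i => Equiv.ofFiberEquiv_map e1 i
  have hgb : ∀ i, (g i).2.1 = lab hμ i := fun i => Equiv.ofFiberEquiv_map e2 i
  have h1 : {i : Fin n // (lab hν (g.trans f.symm i), lab hμ i) = (a, b)} ≃
      {x : X // x.1 = a ∧ x.2.1 = b} := g.subtypeEquiv fun i => by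
    rw [Prod.mk.injEq, ← hgb, ← hfa]
    simp
  have h2 : {x : X // x.1 = a ∧ x.2.1 = b} ≃ Fin (k.1 (a, b)) :=
    { toFun := fun x => Fin.cast (congrArg k.1 (Prod.ext x.2.1 x.2.2)) x.1.2.2
      invFun := fun z => ⟨⟨a, b, z⟩, rfl, rfl⟩
      left_inv := by rintro ⟨⟨a', b', z⟩, ha, hb⟩; subst ha hb; rfl
      right_inv := fun z => rfl }
  rw [table, Nat.card_congr (h1.trans h2), Nat.card_fin]

theorem card_range_table (hν : ∑ i, ν i = n) (hμ : ∑ i, μ i = n) :
    Nat.card (Set.range (table hν hμ)) = Nat.card (Margins ν μ) :=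
  Nat.card_congr
    { toFun := fun c => ⟨c.1, by obtain ⟨π, hπ⟩ := c.2; exact hπ ▸ sum_table_fst hν hμ π⟩
      invFun := fun k => ⟨k.1, exists_table hν hμ k⟩
      left_inv := fun _ => rfl
      right_inv := fun _ => rfl }

/-- The symmetric group side. -/
theorem young_inner (hν : ∑ i, ν i = n) (hμ : ∑ i, μ i = n) :
    ∑ σ : Equiv.Perm (Fin n), fixedPointCharacter (youngSubgroup ν) σ *
        fixedPointCharacter (youngSubgroup μ) σ =
      (Nat.card (Equiv.Perm (Fin n)) : ℂ) * Nat.card (Margins ν μ) := by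
  rw [sum_fixed_mul_fixed (youngSubgroup ν) (youngSubgroup μ) id (table hν hμ)
    (fun g => ⟨g, 1, one_mem _, 1, one_mem _, by simp⟩) (fun w w' => table_eq_iff hν hμ w w'),
    card_range_table hν hμ]

end Cfsg.Agent.UnipotentGL
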