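import Mathlib
import Cfsg.Agent.Lib.UnipotentGL.Orbits

/-!
# Bruhat decomposition of the general linear group and orbits on pairs of partial flags
-/

set_option autoImplicit false

namespace Cfsg.Agent.UnipotentGL

open Matrix

variable {F : Type*} [Field F] {n : ℕ}

/-- Invertible permutation matrix. -/
noncomputable def permGL (F : Type*) [Field F] (π : Equiv.Perm (Fin n)) : GL (Fin n) F where
  val := Matrix.of fun i j => if i = π j then 1 else 0
  inv := Matrix.of fun i j => if π i = j then 1 else 0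
  val_inv := by
    ext i j
    simp only [Matrix.mul_apply, Matrix.one_apply, Matrix.of_apply]
    rw [Finset.sum_eq_single (π.symm i)] <;> simp +contextual [Equiv.eq_symm_apply, eq_comm]
  inv_val := by
    ext i j
    simp only [Matrix.mul_apply, Matrix.one_apply, Matrix.of_apply]
    simp [π.injective.eq_iff]

theorem permGL_apply (π : Equiv.Perm (Fin n)) (i j : Fin n) :
    (permGL F π : Matrix (Fin n) (Fin n) F) i j = if i = π j then 1 else 0 := rfl

theorem permGL_mul (σ π : Equiv.Perm (Fin n)) : permGL F (σ * π) = permGL F σ * permGL F π := by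
  refine Units.ext (Matrix.ext fun i j => ?_)
  rw [Units.val_mul, Matrix.mul_apply, Finset.sum_eq_single (π j)]
  · simp only [permGL_apply, if_true, mul_one]; rfl
  · intro b _ hb; simp [permGL_apply, hb]
  · simp

theorem permGL_mulVec (π : Equiv.Perm (Fin n)) (v : Fin n → F) (i : Fin n) :
    ((permGL F π : GL (Fin n) F) : Matrix (Fin n) (Fin n) F).mulVec v i = v (π.symm i) := by
  rw [Matrix.mulVec, dotProduct, Finset.sum_eq_single (π.symm i)]
  · simp [permGL_apply]
  · intro b _ hb
    rw [permGL_apply, if_neg fun e => hb (by rw [e, Equiv.symm_apply_apply]), zero_mul]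
  · simp

theorem permGL_mem {μ : Fin n → ℕ} {τ : Equiv.Perm (Fin n)} (h : τ ∈ youngSubgroup μ) :
    permGL F τ ∈ parabolicGL n F μ := by
  intro i j hij
  rw [permGL_apply, if_neg]
  rintro rfl
  exact hij.ne (h j).symm

theorem upper_mem {μ : Fin n → ℕ} {g : GL (Fin n) F}
    (hg : ∀ i j : Fin n, j < i → (g : Matrix (Fin n) (Fin n) F) i j = 0) :
    g ∈ parabolicGL n F μ := by
  intro i j hij
  exact hg i j (lt_of_not_ge fun h => hij.not_ge (compLabel_mono μ h))

/-- Bruhat decomposition. -/
theorem bruhat (g : GL (Fin n) F) :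
    ∃ (π : Equiv.Perm (Fin n)) (b c : GL (Fin n) F),
      (∀ i j : Fin n, j < i → (b : Matrix (Fin n) (Fin n) F) i j = 0) ∧
      (∀ i j : Fin n, j < i → (c : Matrix (Fin n) (Fin n) F) i j = 0) ∧
      g = b * permGL F π * c := by
  classical
  set M : Matrix (Fin n) (Fin n) F := ↑g with hM
  have hinjM : Function.Injective M.mulVec := fun v w h => by
    have h' := congrArg (((g⁻¹ : GL (Fin n) F) : Matrix (Fin n) (Fin n) F).mulVec) h
    rwa [Matrix.mulVec_mulVec, Matrix.mulVec_mulVec, hM, Units.inv_mul, Matrix.one_mulVec,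
      Matrix.one_mulVec] at h'
  let supp : (Fin n → F) → Finset (Fin n) := fun v => Finset.univ.filter fun i => v i ≠ 0
  let piv : (Fin n → F) → ℕ := fun v => (supp v).sup fun i => i.val + 1
  have hpiv_le : ∀ (v : Fin n → F) (k : ℕ), piv v ≤ k ↔ ∀ i : Fin n, k ≤ i.val → v i = 0 := by
    intro v k
    simp only [piv, supp, Finset.sup_le_iff, Finset.mem_filter, Finset.mem_univ, true_and]
    constructor
    · intro h i hi; by_contra hv; have := h i hv; omega
    · intro h i hv; by_contra hc; exact hv (h i (by omega))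
  have hpiv_pos : ∀ v : Fin n → F, v ≠ 0 → ∃ i : Fin n, v i ≠ 0 ∧ piv v = i.val + 1 := by
    intro v hv
    have hne : (supp v).Nonempty := by
      by_contra h
      apply hv
      funext i
      by_contra hi
      exact h ⟨i, by simp [supp]; exact hi⟩
    obtain ⟨i, hi, e⟩ := Finset.exists_mem_eq_sup (supp v) hne fun i => i.val + 1
    exact ⟨i, (Finset.mem_filter.1 hi).2, e⟩
  have hsel : ∀ j : Fin n, ∃ (u : Fin n → F) (p : Fin n), u j = 1 ∧ (∀ i, j < i → u i = 0) ∧
      piv (M.mulVec u) = p.val + 1 ∧ M.mulVec u p ≠ 0 ∧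
      ∀ u' : Fin n → F, (∀ i, j ≤ i → u' i = 0) → u' ≠ 0 → piv (M.mulVec u') ≠ p.val + 1 := by
    intro j
    have hex : ∃ k, ∃ u : Fin n → F, u j = 1 ∧ (∀ i, j < i → u i = 0) ∧ piv (M.mulVec u) = k :=
      ⟨_, Pi.single j 1, Pi.single_eq_same _ _, fun i hi => Pi.single_eq_of_ne hi.ne' _, rfl⟩
    obtain ⟨u, hu1, hu2, hu3⟩ := Nat.find_spec hex
    have hu0 : M.mulVec u ≠ 0 := fun h => by
      have := hinjM (h.trans (Matrix.mulVec_zero M).symm)
      rw [this] at hu1; exact zero_ne_one hu1
    obtain ⟨p, hp1, hp2⟩ := hpiv_pos _ hu0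
    refine ⟨u, p, hu1, hu2, hp2, hp1, fun u' hu' hu'0 he => ?_⟩
    have hv0 : M.mulVec u' ≠ 0 := fun h => hu'0 (hinjM (h.trans (Matrix.mulVec_zero M).symm))
    obtain ⟨p', hp'1, hp'2⟩ := hpiv_pos _ hv0
    obtain rfl : p' = p := Fin.ext (by omega)
    set c := M.mulVec u p' / M.mulVec u' p' with hc
    have hlt : piv (M.mulVec (u - c • u')) ≤ p'.val := by
      rw [hpiv_le]
      intro i hi
      rw [Matrix.mulVec_sub, Matrix.mulVec_smul, Pi.sub_apply, Pi.smul_apply, smul_eq_mul]
      rcases eq_or_lt_of_le hi with h | h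
      · rw [← Fin.ext h, hc, div_mul_cancel₀ _ hp'1, sub_self]
      · rw [(hpiv_le _ (p'.val + 1)).1 hp2.le i h, (hpiv_le _ (p'.val + 1)).1 hp'2.le i h, mul_zero,
          sub_zero]
    have := Nat.find_min' hex ⟨u - c • u', by simp [hu1, hu' j le_rfl],
      fun i hi => by simp [hu2 i hi, hu' i hi.le], rfl⟩
    omega
  choose u p hu1 hu2 hp1 hp2 hp3 using hsel
  have hpinj : Function.Injective p := by
    intro a b h
    rcases lt_trichotomy a b with hab | hab | hab
    · refine absurd ?_ (hp3 b (u a) (fun i hi => hu2 a i (hab.trans_le hi)) (fun e => ?_))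
      · rw [hp1 a, h]
      · have := hu1 a; rw [e] at this; exact zero_ne_one this
    · exact hab
    · refine absurd ?_ (hp3 a (u b) (fun i hi => hu2 b i (hab.trans_le hi)) (fun e => ?_))
      · rw [hp1 b, h]
      · have := hu1 b; rw [e] at this; exact zero_ne_one this
  set π : Equiv.Perm (Fin n) := Equiv.ofBijective p (Finite.injective_iff_bijective.1 hpinj)
  let U : Matrix (Fin n) (Fin n) F := Matrix.of fun i j => u j i
  have hU : U.BlockTriangular id := fun i j hij => hu2 j i hij
  have hUu : IsUnit U := by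
    rw [Matrix.isUnit_iff_isUnit_det, Matrix.det_of_upperTriangular hU]
    simp [U, hu1]
  obtain ⟨U', hU'⟩ := hUu
  refine ⟨π, g * U' * (permGL F π)⁻¹, U'⁻¹, fun i j hij => ?_, fun i j hij => ?_, by group⟩
  · have hcol : ((g * U' * (permGL F π)⁻¹ : GL (Fin n) F) : Matrix (Fin n) (Fin n) F) i j =
        M.mulVec (u (π.symm j)) i := by
      rw [Units.val_mul, Units.val_mul, hU', ← hM, Matrix.mul_apply,
        Finset.sum_eq_single (π.symm j)]
      · have : ((permGL F π)⁻¹ : GL (Fin n) F).val (π.symm j) j = 1 :=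
          show (if π (π.symm j) = j then (1 : F) else 0) = 1 from if_pos (π.apply_symm_apply j)
        rw [this, mul_one, Matrix.mul_apply]
        rfl
      · intro b _ hb
        have : ((permGL F π)⁻¹ : GL (Fin n) F).val b j = 0 :=
          show (if π b = j then (1 : F) else 0) = 0 from
            if_neg fun e => hb (by rw [← e, Equiv.symm_apply_apply])
        rw [this, mul_zero]
      · simp
    rw [hcol]
    refine (hpiv_le _ (j.val + 1)).1 ?_ i hij
    rw [hp1]
    have : p (π.symm j) = j := π.apply_symm_apply j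
    rw [this]
  · have hinv : U' ⁻¹ ∈ upperTriangularGL n F := (upperTriangularGL n F).inv_mem (by
      show (U' : Matrix (Fin n) (Fin n) F).BlockTriangular id
      rw [hU']; exact hU)
    exact hinv hij

theorem mulVec_parabolic {μ : Fin n → ℕ} (hμ : ∑ i, μ i = n) {g : GL (Fin n) F}
    (hg : g ∈ parabolicGL n F μ) {v : Fin n → F} {b : ℕ}
    (hv : ∀ i, b ≤ compLabel μ i → v i = 0) (i : Fin n) (hi : b ≤ compLabel μ i) :
    (g : Matrix (Fin n) (Fin n) F).mulVec v i = 0 := by
  rw [Matrix.mulVec, dotProduct]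
  refine Finset.sum_eq_zero fun j _ => ?_
  by_cases hj : b ≤ compLabel μ j
  · rw [hv j hj, mul_zero]
  · rw [hg (show compLabel μ j < compLabel μ i by omega), zero_mul]

variable {ν μ : Fin n → ℕ}

/-- Vectors of the `b`-th subspace sent into the `a`-th one. -/
def meetSet (g : GL (Fin n) F) (ν μ : Fin n → ℕ) (a b : ℕ) : Set (Fin n → F) :=
  {v | (∀ i, b ≤ compLabel μ i → v i = 0) ∧
    ∀ i, a ≤ compLabel ν i → (g : Matrix (Fin n) (Fin n) F).mulVec v i = 0}

theorem card_meetSet_coset (hν : ∑ i, ν i = n) (hμ : ∑ i, μ i = n) {p q : GL (Fin n) F}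
    (hp : p ∈ parabolicGL n F ν) (hq : q ∈ parabolicGL n F μ) (g : GL (Fin n) F) (a b : ℕ) :
    Nat.card (meetSet (p * g * q) ν μ a b) = Nat.card (meetSet g ν μ a b) := by
  refine Nat.card_congr (Equiv.subtypeEquiv
    ({ toFun := (q : Matrix (Fin n) (Fin n) F).mulVec
       invFun := ((q⁻¹ : GL (Fin n) F) : Matrix (Fin n) (Fin n) F).mulVec
       left_inv := fun v => by rw [Matrix.mulVec_mulVec, Units.inv_mul, Matrix.one_mulVec]
       right_inv := fun v => by rw [Matrix.mulVec_mulVec, Units.mul_inv, Matrix.one_mulVec] } :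
      (Fin n → F) ≃ (Fin n → F)) fun v => ?_)
  show v ∈ meetSet _ ν μ a b ↔ (q : Matrix (Fin n) (Fin n) F).mulVec v ∈ meetSet g ν μ a b
  constructor
  · rintro ⟨h1, h2⟩
    refine ⟨mulVec_parabolic hμ hq h1, fun i hi => ?_⟩
    have h3 := mulVec_parabolic hν ((parabolicGL n F ν).inv_mem hp) h2 i hi
    rw [Matrix.mulVec_mulVec, ← Units.val_mul] at h3
    rw [Matrix.mulVec_mulVec, ← Units.val_mul]
    rwa [show p⁻¹ * (p * g * q) = g * q by group] at h3
  · rintro ⟨h1, h2⟩
    constructor
    · intro i hi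
      have h3 := mulVec_parabolic hμ ((parabolicGL n F μ).inv_mem hq) h1 i hi
      rwa [Matrix.mulVec_mulVec, Units.inv_mul, Matrix.one_mulVec] at h3
    · intro i hi
      have h3 := mulVec_parabolic hν hp h2 i hi
      rw [Matrix.mulVec_mulVec, Matrix.mulVec_mulVec, ← Units.val_mul, ← Units.val_mul] at h3
      exact h3

theorem card_meetSet_perm [Fintype F] (π : Equiv.Perm (Fin n)) (a b : ℕ) :
    Nat.card (meetSet (permGL F π) ν μ a b) =
      Fintype.card F ^ (Finset.univ.filter fun i : Fin n =>
        compLabel μ i < b ∧ compLabel ν (π i) < a).card := by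
  classical
  let e : meetSet (permGL F π) ν μ a b ≃
      ({i : Fin n // compLabel μ i < b ∧ compLabel ν (π i) < a} → F) :=
    { toFun := fun v i => v.1 i.1
      invFun := fun w => ⟨fun i => if h : compLabel μ i < b ∧ compLabel ν (π i) < a then w ⟨i, h⟩ else 0,
        fun i hi => dif_neg fun h => by omega, fun i hi => by
          rw [permGL_mulVec]
          exact dif_neg fun h => by rw [Equiv.apply_symm_apply] at h; omega⟩
      left_inv := fun v => by
        apply Subtype.ext
        funext i
        show (if h : _ then v.1 i else 0) = v.1 i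
        by_cases h : compLabel μ i < b ∧ compLabel ν (π i) < a
        · rw [dif_pos h]
        · rw [dif_neg h]
          by_cases hb : compLabel μ i < b
          · have := v.2.2 (π i) (by omega)
            rw [permGL_mulVec, Equiv.symm_apply_apply] at this
            exact this.symm
          · exact (v.2.1 i (by omega)).symm
      right_inv := fun w => by funext i; exact dif_pos i.2 }
  rw [Nat.card_congr e, Nat.card_eq_fintype_card, Fintype.card_fun, Fintype.card_subtype]

open Classical in
theorem card_cell (π : Equiv.Perm (Fin n)) (a b : ℕ) :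
    (Finset.univ.filter fun i : Fin n => compLabel μ i = b ∧ compLabel ν (π i) = a).card +
      (Finset.univ.filter fun i : Fin n => compLabel μ i < b + 1 ∧ compLabel ν (π i) < a).card +
      (Finset.univ.filter fun i : Fin n => compLabel μ i < b ∧ compLabel ν (π i) < a + 1).card =
    (Finset.univ.filter fun i : Fin n => compLabel μ i < b + 1 ∧ compLabel ν (π i) < a + 1).card +
      (Finset.univ.filter fun i : Fin n => compLabel μ i < b ∧ compLabel ν (π i) < a).card := by
  simp only [Finset.card_filter, ← Finset.sum_add_distrib]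
  refine Finset.sum_congr rfl fun i _ => ?_
  split_ifs <;> omega

theorem table_eq_iff_GL [Fintype F] (hν : ∑ i, ν i = n) (hμ : ∑ i, μ i = n)
    (π π' : Equiv.Perm (Fin n)) :
    table hν hμ π = table hν hμ π' ↔ ∃ p ∈ parabolicGL n F ν, ∃ q ∈ parabolicGL n F μ,
      permGL F π' = p * permGL F π * q := by
  classical
  constructor
  · intro h
    obtain ⟨σ, hσ, τ, hτ, rfl⟩ := (table_eq_iff hν hμ π π').1 h
    exact ⟨_, permGL_mem hσ, _, permGL_mem hτ, by rw [permGL_mul, permGL_mul]⟩
  · rintro ⟨p, hp, q, hq, e⟩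
    have hR : ∀ a b : ℕ,
        (Finset.univ.filter fun i : Fin n => compLabel μ i < b ∧ compLabel ν (π' i) < a).card =
        (Finset.univ.filter fun i : Fin n => compLabel μ i < b ∧ compLabel ν (π i) < a).card := by
      intro a b
      have h1 := card_meetSet_coset hν hμ hp hq (permGL F π) a b
      rw [← e, card_meetSet_perm, card_meetSet_perm] at h1
      exact Nat.pow_right_injective Fintype.one_lt_card h1
    funext x
    have hx : ∀ ρ : Equiv.Perm (Fin n), table hν hμ ρ x = (Finset.univ.filter fun i : Fin n =>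
        compLabel μ i = x.2.val ∧ compLabel ν (ρ i) = x.1.val).card := by
      intro ρ
      rw [table, Nat.card_eq_fintype_card, Fintype.card_subtype]
      congr 1
      ext i
      simp [Prod.ext_iff, lab, Fin.ext_iff, and_comm]
    rw [hx, hx]
    have h1 := card_cell (ν := ν) (μ := μ) π x.1.val x.2.val
    have h2 := card_cell (ν := ν) (μ := μ) π' x.1.val x.2.val
    rw [hR, hR, hR, hR] at h2
    omega

/-- The general linear side. -/
theorem gl_inner [Fintype F] [DecidableEq F] (hν : ∑ i, ν i = n) (hμ : ∑ i, μ i = n) :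
    ∑ g : GL (Fin n) F, fixedPointCharacter (parabolicGL n F ν) g *
        fixedPointCharacter (parabolicGL n F μ) g =
      (Nat.card (GL (Fin n) F) : ℂ) * Nat.card (Margins ν μ) := by
  rw [sum_fixed_mul_fixed (parabolicGL n F ν) (parabolicGL n F μ) (permGL F) (table hν hμ) ?_
    (fun w w' => table_eq_iff_GL hν hμ w w'), card_range_table hν hμ]
  intro g
  obtain ⟨π, b, c, hb, hc, rfl⟩ := bruhat g
  exact ⟨π, b, upper_mem hb, c, upper_mem hc, rfl⟩

end Cfsg.Agent.UnipotentGL
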